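import Cfsg.Agent.N2.Cl.Defs

/-!
# N2 (S3519): the centraliser of an arbitrary isometry (helper97, proof by helper69)

* `sizeG` : `|C_Iso(u)|² ≤ |C_A(u)| |V|`;
* `chain` : `|C_Iso(u)| ≤ q ^ ∑ (n - dim W_i)` for a chain of `u`-submodules with cyclic factors.
-/

set_option autoImplicit false
set_option linter.unusedSectionVars false

namespace Cfsg.Agent.N2C.SzG

open Cfsg Cfsg.Agent.DS.Cl Cfsg.Agent.DS.Cl.Fwd Module Subgroup Polynomial

section grp

variable {G : Type*} [Group G] [Finite G]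

theorem card_step {U U' : Subgroup G} {Y : Type*} [Finite Y] (f : U → Y) (h : ∀ a b : U, f a = f b → (a : G)⁻¹ * b ∈ U') :
    Nat.card U ≤ Nat.card Y * Nat.card U' := by
  rw [← Nat.card_prod]
  refine Nat.card_le_card_of_injective (fun a => (f a, ⟨_, h (Function.invFun f (f a)) a (Function.invFun_eq ⟨a, rfl⟩)⟩))
    fun a b e => ?_
  obtain ⟨e1, e2⟩ := Prod.mk.inj e
  have e3 := Subtype.mk.inj e2
  rw [e1] at e3
  exact Subtype.ext (mul_left_cancel e3)

theorem card_chain (U : ℕ → Subgroup G) {k : ℕ} (m : Fin k → ℕ) (h : ∀ i : Fin k, Nat.card (U i) ≤ m i * Nat.card (U (i + 1))) :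
    Nat.card (U 0) ≤ (∏ i, m i) * Nat.card (U k) := by
  induction k with
  | zero => simp
  | succ k ih =>
    rw [Fin.prod_univ_castSucc, mul_assoc]
    exact (ih _ fun i => h i.castSucc).trans (Nat.mul_le_mul_left _ (h (Fin.last k)))

end grp

theorem card_mul_le {M : Type*} [AddCommGroup M] [Finite M] {X X' R : AddSubgroup M} (h : X ≤ R) (h' : X' ≤ R) :
    Nat.card X * Nat.card X' ≤ Nat.card R * Nat.card ↥(X ⊓ X') := by
  let f : X × X' →+ R := (X.subtype.coprod (-X'.subtype)).codRestrict R fun x => R.add_mem (h x.1.2) (R.neg_mem (h' x.2.2))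
  rw [← Nat.card_prod, ← f.ker.index_mul_card, AddSubgroup.index_ker]
  have e : ∀ x : f.ker, (x.1.1 : M) = x.1.2 := fun x => add_neg_eq_zero.1 (congrArg Subtype.val x.2)
  refine Nat.mul_le_mul (AddSubgroup.card_le_card_addGroup _) (Nat.card_le_card_of_injective
    (fun x => ⟨x.1.1, x.1.1.2, e x ▸ x.1.2.2⟩) fun x y k => ?_)
  have k' : (x.1.1 : M) = y.1.1 := Subtype.mk.inj k
  exact Subtype.ext (Prod.ext (Subtype.ext k') (Subtype.ext ((e x).symm.trans (k'.trans (e y)))))

section ring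

variable {A : Type*} [Ring A] [StarRing A] [Finite A]

/-- the ring level statement -/
theorem card_sq_le (R : Subring A) (hR : ∀ x ∈ R, star x ∈ R) {k : ℕ} (e : Fin k → A) (he : ∀ i, e i ∈ R) (h1 : ∑ i, e i = 1)
    (ho : ∀ i j, i ≠ j → e i * e j = 0) (G : Subgroup Aˣ) (hG : ∀ c ∈ G, (c : A) ∈ R ∧ (c : A) * star (c : A) = 1) :
    Nat.card G ^ 2 ≤ Nat.card R * Nat.card {x : A // x ∈ R ∧ ∀ i j, i ≠ j → star (e j) * x * e i = 0} := by
  have hid : ∀ i, e i * e i = e i := fun i => by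
    conv_rhs => rw [← mul_one (e i), ← h1, Finset.mul_sum]
    exact (Finset.sum_eq_single i (fun j _ hj => ho i j hj.symm) (by simp)).symm
  let U : ℕ → Subgroup Aˣ := fun i =>
    { carrier := {c | c ∈ G ∧ ∀ j : Fin k, (j : ℕ) < i → c * e j = e j}
      one_mem' := ⟨one_mem _, fun j _ => one_mul _⟩
      mul_mem' := fun {a b} ha hb => ⟨mul_mem ha.1 hb.1, fun j hj => by rw [Units.val_mul, mul_assoc, hb.2 j hj, ha.2 j hj]⟩
      inv_mem' := fun {a} ha => ⟨inv_mem ha.1, fun j hj => by rw [Units.inv_mul_eq_iff_eq_mul, ha.2 j hj]⟩ }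
  let Y : Fin k → Type _ := fun i => {y : A // y ∈ R ∧ y * e i = y ∧ ∀ j < i, star (e j) * y = 0}
  have hs : ∀ i : Fin k, Nat.card (U i) ≤ Nat.card (Y i) * Nat.card (U (i + 1)) := fun i => by
    refine card_step (fun c => ⟨(c.1 - 1) * e i, R.mul_mem (R.sub_mem (hG _ c.2.1).1 R.one_mem) (he i), by rw [mul_assoc, hid],
      fun j hj => ?_⟩) fun a b hab => ⟨mul_mem (inv_mem a.2.1) b.2.1, fun j hj => ?_⟩
    · have h2 : star (c.1 : A) * c.1 = 1 := by rw [← Units.inv_eq_of_mul_eq_one_right (hG _ c.2.1).2, Units.inv_mul]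
      have h3 : star (e j) * c.1 = star (e j) := by
        conv_lhs => rw [← c.2.2 j hj, star_mul, mul_assoc, h2, mul_one]
      rw [← mul_assoc, mul_sub, h3, mul_one, sub_self, zero_mul]
    · rcases (Nat.lt_succ_iff.1 hj).eq_or_lt with h | h
      · have h2 := Subtype.mk.inj hab
        rw [sub_mul, sub_mul, sub_left_inj] at h2
        rw [Fin.ext h, Units.val_mul, mul_assoc, ← h2, Units.inv_mul_cancel_left]
      · exact (mul_mem (inv_mem a.2) b.2).2 j h
  have hk : Nat.card (U k) = 1 := by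
    rw [show U k = ⊥ from eq_bot_iff.2 fun c hc => Units.ext ?_, card_bot]
    rw [← mul_one (c : A), ← h1, Finset.mul_sum, Finset.sum_congr rfl fun j _ => hc.2 j j.2, h1, Units.val_one]
  let X : AddSubgroup A :=
    { carrier := {x | x ∈ R ∧ ∀ i j, j < i → star (e j) * x * e i = 0}
      zero_mem' := ⟨R.zero_mem, fun _ _ _ => by simp⟩
      add_mem' := fun ha hb => ⟨R.add_mem ha.1 hb.1, fun i j h => by rw [mul_add, add_mul, ha.2 i j h, hb.2 i j h, add_zero]⟩
      neg_mem' := fun ha => ⟨R.neg_mem ha.1, fun i j h => by rw [mul_neg, neg_mul, ha.2 i j h, neg_zero]⟩ }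
  let X' : AddSubgroup A :=
    { carrier := {x | x ∈ R ∧ ∀ i j, i < j → star (e j) * x * e i = 0}
      zero_mem' := ⟨R.zero_mem, fun _ _ _ => by simp⟩
      add_mem' := fun ha hb => ⟨R.add_mem ha.1 hb.1, fun i j h => by rw [mul_add, add_mul, ha.2 i j h, hb.2 i j h, add_zero]⟩
      neg_mem' := fun ha => ⟨R.neg_mem ha.1, fun i j h => by rw [mul_neg, neg_mul, ha.2 i j h, neg_zero]⟩ }
  have hsum : ∀ (y : ∀ i, Y i) (i : Fin k), (∑ l, (y l).1) * e i = (y i).1 := fun y i => by
    rw [Finset.sum_mul, Finset.sum_eq_single i (fun l _ hl => by rw [← (y l).2.2.1, mul_assoc, ho l i hl, mul_zero]) (by simp),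
      (y i).2.2.1]
  have h2 : Nat.card G ≤ Nat.card X := by
    have h3 := card_chain U _ hs
    rw [hk, mul_one, ← Nat.card_pi, show U 0 = G from Subgroup.ext fun c => ⟨fun h => h.1, fun h => ⟨h, fun _ k => absurd k (by omega)⟩⟩] at h3
    refine h3.trans (Nat.card_le_card_of_injective (fun y => ⟨∑ l, (y l).1, R.sum_mem fun l _ => (y l).2.1, fun i j h => ?_⟩)
      fun y y' h => funext fun i => Subtype.ext ?_)
    · rw [mul_assoc, hsum, (y i).2.2.2 j h]
    · rw [← hsum, ← hsum, Subtype.mk.inj h]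
  have h3 : Nat.card X ≤ Nat.card X' :=
    Nat.card_le_card_of_injective (fun x => ⟨star x.1, hR _ x.2.1, fun i j h => by
      simpa [mul_assoc] using congrArg star (x.2.2 j i h)⟩) fun x y h => Subtype.ext (star_injective (Subtype.mk.inj h))
  calc _ ≤ Nat.card X * Nat.card X' := by rw [sq]; exact Nat.mul_le_mul h2 (h2.trans h3)
    _ ≤ Nat.card R.toAddSubgroup * Nat.card ↥(X ⊓ X') := card_mul_le (fun _ h => h.1) fun _ h => h.1
    _ ≤ _ := Nat.mul_le_mul_left _ (Nat.card_le_card_of_injective (fun x => ⟨x.1, x.2.1.1, fun i j h =>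
      h.lt_or_gt.elim (x.2.2.2 i j) (x.2.1.2 i j)⟩) fun x y h => Subtype.ext (by simpa using h))

end ring

/-- decomposition into cyclic modules `e i V = K[T] e i v` -/
theorem exists_cyc {K V : Type} [Field K] [AddCommGroup V] [Module K V] [FiniteDimensional K V] (T : Module.End K V) :
    ∃ (k : ℕ) (e : Fin k → Module.End K V) (v : V), ∑ i, e i = 1 ∧ (∀ i j, i ≠ j → e i * e j = 0) ∧ (∀ i, e i * T = T * e i) ∧
      ∀ x : Module.End K V, x * T = T * x → (∀ i, x (e i v) = 0) → x = 0 := by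
  classical
  obtain ⟨ι, _, p, -, n, ⟨f⟩⟩ := Module.equiv_directSum_of_isTorsion (Module.AEval.isTorsion_of_finiteDimensional K V T)
  let g : Module.AEval' T ≃ₗ[K[X]] ∀ i : ι, K[X] ⧸ (Ideal.span {p i ^ n i} : Ideal K[X]) := f ≪≫ₗ DirectSum.linearEquivFunOnFintype _ _ _
  let o : V ≃ₗ[K] Module.AEval' T := Module.AEval'.of T
  let E : ι → Module.End K V := fun i => o.symm.toLinearMap ∘ₗ
    ((g.symm.toLinearMap ∘ₗ LinearMap.mulLeft K[X] (Pi.single i 1) ∘ₗ g.toLinearMap).restrictScalars K) ∘ₗ o.toLinearMap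
  have hE : ∀ i x, E i x = o.symm (g.symm (Pi.single i 1 * g (o x))) := fun _ _ => rfl
  have hp : ∀ (r : K[X]) (x : V), o (aeval T r x) = r • o x := fun r x => Module.AEval.of_aeval_smul T r x
  let σ := (Fintype.equivFin ι).symm
  refine ⟨_, fun i => E (σ i), o.symm (g.symm 1), ?_, fun i j h => ?_, fun i => ?_, fun x hx h => ?_⟩
  · rw [σ.sum_comp E]
    ext x
    simp only [LinearMap.sum_apply, hE, ← map_sum, ← Finset.sum_mul]
    rw [show ∑ i, Pi.single i 1 = (1 : ∀ i : ι, K[X] ⧸ (Ideal.span {p i ^ n i} : Ideal K[X])) from Finset.univ_sum_single 1]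
    simp
  · ext x
    rw [Module.End.mul_apply, hE, hE, o.apply_symm_apply, g.apply_symm_apply, ← mul_assoc,
      show Pi.single (σ i) 1 * Pi.single (σ j) 1 = (0 : ∀ i : ι, K[X] ⧸ (Ideal.span {p i ^ n i} : Ideal K[X])) from ?_]
    · simp
    · funext l
      by_cases hl : l = σ i
      · rw [Pi.mul_apply, Pi.single_eq_of_ne (i := σ j) (by rw [hl]; exact σ.injective.ne h), mul_zero]; rfl
      · rw [Pi.mul_apply, Pi.single_eq_of_ne hl, zero_mul]; rfl
  · ext x
    have h1 := hp X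
    simp only [aeval_X] at h1
    apply o.injective
    rw [Module.End.mul_apply, Module.End.mul_apply, h1, hE, hE, h1, o.apply_symm_apply, o.apply_symm_apply, map_smul, mul_smul_comm,
      map_smul]
  · ext w
    choose r hr using fun i => Ideal.Quotient.mk_surjective (g (o w) i)
    have h1 : w = ∑ i, aeval T (r i) (E i (o.symm (g.symm 1))) := by
      apply o.injective
      apply g.injective
      simp only [map_sum, hp, hE, o.apply_symm_apply, g.apply_symm_apply, map_smul, mul_one]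
      funext l
      rw [Finset.sum_apply, Finset.sum_eq_single l (fun i _ hi => by rw [Pi.smul_apply, Pi.single_eq_of_ne hi.symm, smul_zero])
        (by simp), Pi.smul_apply, Pi.single_eq_same, ← hr, ← Algebra.algebraMap_eq_smul_one]
      rfl
    rw [h1, map_sum]
    refine Finset.sum_eq_zero fun i _ => ?_
    have h2 : Commute x (aeval T (r i)) := by
      rw [aeval_eq_sum_range]
      exact Commute.sum_right _ _ _ fun l _ => (Commute.pow_right hx l).smul_right _
    have h3 := h (σ.symm i)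
    simp only [σ.apply_symm_apply] at h3
    rw [← Module.End.mul_apply, h2.eq, Module.End.mul_apply, h3, map_zero]

variable {K V : Type} [Field K] [AddCommGroup V] [Module K V] [Finite K] [Finite V] (h : HF K V)

/-- **size of any group of isometries commuting with an isometry `u`** -/
theorem sizeG' {u : h.EB} (hu : u * star u = 1) (G : Subgroup h.EBˣ)
    (hG : ∀ c ∈ G, (c : h.EB) * star (c : h.EB) = 1 ∧ u * c = c * u) :
    Nat.card G ^ 2 ≤ Nat.card {x : h.EB // u * x = x * u} * Nat.card V := by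
  have : Module.Finite K V := Module.Finite.of_finite
  obtain ⟨k, e, v, h1, ho, hc, hv⟩ := exists_cyc (h.ap u)
  have hu' : star u * u = 1 := mul_eq_one_comm.1 hu
  have hm : ∀ x, x ∈ Subring.centralizer ({u} : Set h.EB) ↔ u * x = x * u := fun x => by simp [Subring.mem_centralizer_iff]
  have hR : ∀ x ∈ Subring.centralizer ({u} : Set h.EB), star x ∈ Subring.centralizer ({u} : Set h.EB) := fun x hx => by
    have h2 := congrArg star ((hm x).1 hx)
    rw [star_mul, star_mul] at h2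
    rw [hm]
    calc u * star x = u * (star x * star u) * u := by rw [mul_assoc u, mul_assoc, hu', mul_one]
      _ = _ := by rw [h2, ← mul_assoc, hu, one_mul]
  have h1' : ∑ i, h.eb (e i) = 1 := h1
  refine (card_sq_le _ hR (fun i => h.eb (e i)) (fun i => (hm _).2 (hc i).symm) h1' ho G
    fun c k => ⟨(hm _).2 (hG c k).2, (hG c k).1⟩).trans (Nat.mul_le_mul (le_of_eq (Nat.card_congr (Equiv.subtypeEquivRight hm)))
      (Nat.card_le_card_of_injective (fun x => h.ap x.1 v) fun x y k => Subtype.ext (sub_eq_zero.1 ?_)))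
  have hs : ∑ i, star (h.eb (e i)) = 1 := by rw [← star_sum, h1', star_one]
  have hz : ∀ i j, i ≠ j → star (h.eb (e j)) * (x.1 - y.1) * h.eb (e i) = 0 := fun i j n => by
    rw [mul_sub, sub_mul, x.2.2 i j n, y.2.2 i j n, sub_zero]
  refine hv (h.ap (x.1 - y.1)) ((hm _).1 (sub_mem x.2.1 y.2.1)).symm fun i => ?_
  have h2 : (x.1 - y.1) * h.eb (e i) = star (h.eb (e i)) * (x.1 - y.1) := by
    calc _ = ∑ j, star (h.eb (e j)) * (x.1 - y.1) * h.eb (e i) := by rw [← Finset.sum_mul, ← Finset.sum_mul, hs, one_mul]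
      _ = star (h.eb (e i)) * (x.1 - y.1) * h.eb (e i) := Finset.sum_eq_single i (fun j _ n => hz i j n.symm) (by simp)
      _ = ∑ j, star (h.eb (e i)) * (x.1 - y.1) * h.eb (e j) := (Finset.sum_eq_single i (fun j _ n => hz j i n) (by simp)).symm
      _ = _ := by rw [← Finset.mul_sum, h1', mul_one]
  change h.ap ((x.1 - y.1) * h.eb (e i)) v = 0
  rw [h2, h.ap_mul, h.ap_sub, sub_eq_zero.2 k, map_zero]

/-- **(a)** `|C_W(u)|² ≤ |C_A(u)| |V|` for every subgroup `W` of the isometry group -/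
theorem sizeG (F : FR h.EB) {u : h.EBˣ} (hu : u ∈ F.Iso) {W : Subgroup h.EBˣ} (hW : W ≤ F.Iso) :
    Nat.card ↥(centralizer {u} ⊓ W) ^ 2 ≤ Nat.card {x : h.EB // u * x = x * u} * Nat.card V :=
  sizeG' h hu.1 _ fun _ hc => ⟨(hW hc.2).1, congrArg Units.val (mem_centralizer_singleton_iff.1 hc.1).symm⟩

theorem card_perp (W : Submodule K V) : Nat.card {w : V // ∀ z ∈ W, h.b z w = 0} ≤ Nat.card K ^ (finrank K V - finrank K W) := by
  have : Module.Finite K V := Module.Finite.of_finite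
  have : Finite (Module.Dual K V) := Finite.of_injective _ DFunLike.coe_injective
  have h1 := Subspace.finrank_add_finrank_dualAnnihilator_eq W
  rw [show finrank K V - finrank K W = finrank K W.dualAnnihilator by omega, ← Module.natCard_eq_pow_finrank (K := K) (V := W.dualAnnihilator)]
  exact Nat.card_le_card_of_injective (fun w => ⟨h.lin w.1, (Submodule.mem_dualAnnihilator _).2 w.2⟩) fun w w' e =>
    Subtype.ext (h.ext_right fun z => LinearMap.congr_fun (Subtype.mk.inj e) z)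

/-- the submodule generated by the first `i` vectors -/
def gen (u : h.EB) {k : ℕ} (v : Fin k → V) (i : ℕ) : Submodule K V :=
  Submodule.span K {w | ∃ (j : ℕ) (l : Fin k), (l : ℕ) < i ∧ w = h.ap (u ^ j) (v l)}

/-- **(b)** the chain lemma; `u` is any endomorphism -/
theorem chain' (u : h.EB) {k : ℕ} (v : Fin k → V) (hv : gen h u v k = ⊤) (G : Subgroup h.EBˣ)
    (hG : ∀ c ∈ G, (c : h.EB) * star (c : h.EB) = 1 ∧ u * c = c * u) :
    Nat.card G ≤ Nat.card K ^ ∑ i : Fin k, (finrank K V - finrank K (gen h u v i)) := by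
  let U : ℕ → Subgroup h.EBˣ := fun i =>
    { carrier := {c | c ∈ G ∧ ∀ j : Fin k, (j : ℕ) < i → h.ap c (v j) = v j}
      one_mem' := ⟨one_mem _, fun j _ => rfl⟩
      mul_mem' := fun {a b} ha hb => ⟨mul_mem ha.1 hb.1, fun j hj => by rw [Units.val_mul, h.ap_mul, hb.2 j hj, ha.2 j hj]⟩
      inv_mem' := fun {a} ha => ⟨inv_mem ha.1, fun j hj => by
        conv_lhs => rw [← ha.2 j hj, ← h.ap_mul, Units.inv_mul, h.ap_one]⟩ }
  have hfix : ∀ i, ∀ c ∈ U i, ∀ z ∈ gen h u v i, h.ap c z = z := fun i c hc z hz => by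
    have : gen h u v i ≤ LinearMap.eqLocus (h.ap c) 1 := Submodule.span_le.2 (by
      rintro _ ⟨j, l, hl, rfl⟩
      change h.ap c _ = _
      rw [← h.ap_mul, ← (Commute.pow_left (hG c hc.1).2 j).eq, h.ap_mul, hc.2 l hl]
      rfl)
    exact this hz
  have hs : ∀ i : Fin k, Nat.card (U i) ≤ Nat.card K ^ (finrank K V - finrank K (gen h u v i)) * Nat.card (U (i + 1)) := fun i => by
    refine (card_step (U := U i) (U' := U (i + 1)) (Y := {w : V // ∀ z ∈ gen h u v i, h.b z w = 0}) (fun c => ⟨h.ap c.1 (v i) - v i, fun z hz => ?_⟩)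
      fun a b hab => ⟨mul_mem (inv_mem a.2.1) b.2.1, fun j hj => ?_⟩).trans (Nat.mul_le_mul_right _ (card_perp h _))
    · have h2 : star (c.1 : h.EB) * c.1 = 1 := mul_eq_one_comm.1 (hG _ c.2.1).1
      rw [h.sub_right, sub_eq_zero]
      conv_lhs => rw [← hfix i c c.2 z hz, ← h.b_star, ← h.ap_mul, h2, h.ap_one]
    · rcases (Nat.lt_succ_iff.1 hj).eq_or_lt with e | e
      · rw [Fin.ext e, Units.val_mul, h.ap_mul, ← sub_left_inj.1 (Subtype.mk.inj hab), ← h.ap_mul, Units.inv_mul, h.ap_one]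
      · exact (mul_mem (inv_mem a.2) b.2).2 j e
  have h3 := card_chain U _ hs
  rwa [show U k = ⊥ from eq_bot_iff.2 fun c hc => Units.ext (h.ap_ext fun z => hfix k c hc z (hv ▸ trivial)), card_bot, mul_one,
    Finset.prod_pow_eq_pow_sum,
    show U 0 = G from Subgroup.ext fun c => ⟨fun h => h.1, fun h => ⟨h, fun _ k => absurd k (by omega)⟩⟩] at h3

theorem chain (F : FR h.EB) (u : h.EBˣ) {k : ℕ} (v : Fin k → V) (hv : gen h u v k = ⊤) {W : Subgroup h.EBˣ} (hW : W ≤ F.Iso) :
    Nat.card ↥(centralizer {u} ⊓ W) ≤ Nat.card K ^ ∑ i : Fin k, (finrank K V - finrank K (gen h u v i)) :=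
  chain' h u v hv _ fun _ hc => ⟨(hW hc.2).1, congrArg Units.val (mem_centralizer_singleton_iff.1 hc.1).symm⟩

end Cfsg.Agent.N2C.SzG
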